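import Groth.Agent.Vancyc.H690.Morse
import Groth.Agent.Vancyc.H690.HensPres

/-!
# The relative henselian Morse lemma: final assembly

`conclude`: a quotient of `A{x}` by one equation whose quadratic part on the closed fibre is non-degenerate is
the henselization of a standard model `A[x]/(Q - b)` at the origin.
-/

set_option autoImplicit false
universe u v

namespace Groth.Agent.Vancyc.H689.Asm4008

open IsLocalRing Groth.Agent.Vancyc.H690.HensFree Groth.Agent.Vancyc.H690.HensPres

variable {A : Type u} [CommRing A] {N : ℕ}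

/-- The henselization of the standard model as a quotient of `A{z}`. -/
theorem model [IsLocalRing A] {R : Type u} [CommRing R] [Algebra A R] {z : Fin N → R} (hz : IsHensFree A R z)
    (a : Fin N → Fin N → A) (b : A)
    [hP : (VanCyc.originQuot A a b).IsPrime] (C : Type u) [CommRing C] [IsLocalRing C]
    [Algebra (Localization.AtPrime (VanCyc.originQuot A a b)) C]
    [IsLocalHom (algebraMap (Localization.AtPrime (VanCyc.originQuot A a b)) C)]
    [Hensel.IsHenselization (Localization.AtPrime (VanCyc.originQuot A a b)) C]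
    [Algebra A C] [IsScalarTower A (Localization.AtPrime (VanCyc.originQuot A a b)) C] :
    ∃ π : R →ₐ[A] C, Function.Surjective π ∧
      RingHom.ker π = Ideal.span {VanCyc.quadEval (fun i j => algebraMap A R (a i j)) z - algebraMap A R b} := by
  set y : Fin N → VanCyc.quadRing A a b := fun i => Ideal.Quotient.mk _ (MvPolynomial.X i) with hy
  have hae : (MvPolynomial.aeval (R := A) y) = Ideal.Quotient.mkₐ A _ := by
    ext i
    simp [hy]
  have hsur : Function.Surjective (MvPolynomial.aeval (R := A) y) := by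
    rw [hae]
    exact Ideal.Quotient.mkₐ_surjective _ _
  have hker : RingHom.ker (MvPolynomial.aeval (R := A) y) =
      Ideal.span {VanCyc.quadPoly a - MvPolynomial.C b} := by
    rw [hae]
    exact Ideal.Quotient.mkₐ_ker A (Ideal.span {VanCyc.quadPoly a - MvPolynomial.C b})
  have hmA : (maximalIdeal A).map (algebraMap A (VanCyc.quadRing A a b)) ≤ VanCyc.originQuot A a b := by
    rw [Ideal.map_le_iff_le_comap]
    intro c hc
    rw [Ideal.mem_comap]
    have : algebraMap A (VanCyc.quadRing A a b) c = Ideal.Quotient.mk _ (MvPolynomial.C c) := rfl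
    rw [this]
    exact Ideal.mem_map_of_mem _ (Ideal.mem_sup_left (Ideal.mem_map_of_mem _ hc))
  have hyP : ∀ i, y i ∈ VanCyc.originQuot A a b := fun i =>
    Ideal.mem_map_of_mem _ (Ideal.mem_sup_right (Ideal.subset_span ⟨i, rfl⟩))
  have hpres := isHensPres_of_isHenselization (A := A) y hsur (VanCyc.originQuot A a b) hmA hyP C
  obtain ⟨π, h1, -, h3⟩ := exists_surjective_ker_eq hz hpres
  refine ⟨π, h1, ?_⟩
  rw [h3, hker, Ideal.map_span, Set.image_singleton, map_sub,
    Groth.Agent.Vancyc.H690.Morse.aeval_quadPoly]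
  congr 3
  exact MvPolynomial.aeval_C _ _

/-- The quotient of `A{x}` by one equation with non-degenerate quadratic part. -/
theorem conclude [HenselianLocalRing A] {R : Type u} [CommRing R] [IsLocalRing R] [Algebra A R]
    {x : Fin N → R} (hx : IsHensFree A R x)
    {Bh : Type u} [CommRing Bh] [Algebra A Bh] (g : R →ₐ[A] Bh) (hg : Function.Surjective g)
    (F : R) (hF : RingHom.ker g = Ideal.span {F})
    (a : Fin N → Fin N → A) (ha : VanCyc.QuadNondeg a)
    (hFa : F - VanCyc.quadEval (fun i j => algebraMap A R (a i j)) x ∈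
      (maximalIdeal A).map (algebraMap A R) ⊔ maximalIdeal R ^ 3) :
    ∃ (a : Fin N → Fin N → A) (b : A), VanCyc.QuadNondeg a ∧ b ∈ maximalIdeal A ∧
      ∀ [(VanCyc.originQuot A a b).IsPrime] (C : Type u) [CommRing C] [IsLocalRing C]
        [Algebra (Localization.AtPrime (VanCyc.originQuot A a b)) C]
        [IsLocalHom (algebraMap (Localization.AtPrime (VanCyc.originQuot A a b)) C)]
        [Hensel.IsHenselization (Localization.AtPrime (VanCyc.originQuot A a b)) C]
        [Algebra A C] [IsScalarTower A (Localization.AtPrime (VanCyc.originQuot A a b)) C],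
        Nonempty (Bh ≃ₐ[A] C) := by
  obtain ⟨z, b, hz, hb, hFb⟩ := Groth.Agent.Vancyc.H690.Morse.exists_morse hx a ha F hFa
  refine ⟨a, b, ha, hb, ?_⟩
  intro _ C _ _ _ _ _ _ _
  obtain ⟨π, hπ, hk⟩ := model hz a b C
  have e1 : (R ⧸ RingHom.ker g) ≃ₐ[A] Bh := Ideal.quotientKerAlgEquivOfSurjective hg
  have e2 : (R ⧸ RingHom.ker π) ≃ₐ[A] C := Ideal.quotientKerAlgEquivOfSurjective hπ
  have e3 : RingHom.ker g = RingHom.ker π := by rw [hF, hk, hFb]
  exact ⟨(e1.symm.trans (Ideal.quotientEquivAlgOfEq A e3)).trans e2⟩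

end Groth.Agent.Vancyc.H689.Asm4008
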